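import Cfsg.Agent.BlockCount.CyclicForm
import Cfsg.Agent.BlockCount.Bound
import Cfsg.Agent.BlockCover.Quotient

/-!
The number of characters in a block whose defect group is abelian of rank two or three.
-/

set_option autoImplicit false
set_option linter.style.haveILetI false
set_option linter.unusedSectionVars false
set_option maxHeartbeats 1000000

namespace Cfsg.Agent.BlockCount

open Cfsg
open Cfsg.Agent.Block Cfsg.Agent.BlkChar.Contrib Cfsg.Agent.BlkChar.Cyclo
open scoped ComplexConjugate Classical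
open Cfsg.Agent.Brauer (regSum)

universe u

variable {p : ℕ} [hp : Fact p.Prime] {M : Ideal AlgInt}

/-- A major subsection bounds the characters of a block by the order of the defect group times the
number of its modular characters. -/
theorem card_le_pow_mul_blockRank {G : Type u} [Group G] [Fintype G] {C : Subgroup G} [Fintype C]
    {u : G} {k : ℕ} {B : Set (IrrCharacter G)} {b : Set (IrrCharacter C)}
    (hS : IsSection p k u C) (hM : IsPModular p M) (hind : IsInducedBlock M C b B)
    (hd : blockDefect p b = blockDefect p B) :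
    Nat.card B ≤ p ^ blockDefect p b * blockRank p b := by
  haveI : M.IsPrime := isPrime_of_isPModular hM
  obtain ⟨χ₀, hχ₀, h₀⟩ := BlockVal.exists_height_zero (p := p) (pBlock_nonempty hind.2.1)
  set U : ℝ := ((unitSet (p ^ k)).card : ℝ) with hUdef
  have hU : 0 < U := Nat.cast_pos.2 (unitSet_card_pos _)
  have hlow : ∀ χ ∈ B, U ≤ diagSum hS b χ := by
    intro χ hχ
    choose r hr0 hr using fun j : ZMod (p ^ k) => cM_self hS b χ j
    have hne : ∀ j : (ZMod (p ^ k))ˣ, 0 < r j := fun j => (hr0 _).lt_of_ne fun h => by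
      have h1 := sum_normSq_cM hS hM hind.1 χ j.isUnit
      rw [hr, ← h, Complex.ofReal_zero, mul_zero, ← Complex.ofReal_sum, Complex.ofReal_eq_zero,
        Finset.sum_eq_zero_iff_of_nonneg fun ψ _ => Complex.normSq_nonneg _] at h1
      exact cM_ne_zero_major hS hM hind hd hχ hχ₀ h₀ j.isUnit
        (Complex.normSq_eq_zero.1 (h1 χ₀ (Finset.mem_univ _)))
    have hmem : (fun j : (ZMod (p ^ k))ˣ => cM hS b χ χ (j : ZMod (p ^ k))) ∈
        GalAvg.cycFun (p ^ k) := by
      simp only [cM_eq_cev]
      exact BlockHeight.cev_mem_cycFun _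
    obtain ⟨m, hm⟩ := GalAvg.exists_int_prod hmem
    rw [Finset.prod_congr rfl fun (j : (ZMod (p ^ k))ˣ) _ => hr (j : ZMod (p ^ k)),
      ← Complex.ofReal_prod, ← Complex.ofReal_intCast, Complex.ofReal_inj] at hm
    have hm1 : (1 : ℝ) ≤ ∏ j : (ZMod (p ^ k))ˣ, r (j : ZMod (p ^ k)) := by
      have : (0 : ℝ) < (m : ℝ) := hm ▸ Finset.prod_pos fun j _ => hne j
      rw [hm]
      exact_mod_cast (Int.add_one_le_iff.2 (Int.cast_pos.1 this))
    have h := GalAvg.card_le_sum_of_one_le_prod Finset.univ
      (fun j : (ZMod (p ^ k))ˣ => r (j : ZMod (p ^ k))) (fun j _ => hne j) hm1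
    have himg : unitSet (p ^ k) =
        (Finset.univ : Finset (ZMod (p ^ k))ˣ).map
          ⟨(Units.val : (ZMod (p ^ k))ˣ → ZMod (p ^ k)), Units.val_injective⟩ := by
      ext j
      simp only [mem_unitSet, Finset.mem_map, Finset.mem_univ, true_and, Function.Embedding.coeFn_mk]
      exact ⟨fun h => ⟨h.unit, rfl⟩, fun ⟨v, hv⟩ => hv ▸ v.isUnit⟩
    rw [hUdef, diagSum, himg, Finset.card_map, Finset.sum_map]
    refine h.trans (le_of_eq (Finset.sum_congr rfl fun j _ => ?_))
    rw [Function.Embedding.coeFn_mk, hr, Complex.ofReal_re]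
  have h2 : (Nat.card B : ℝ) * U ≤ ((p ^ blockDefect p b * blockRank p b : ℕ) : ℝ) * U := by
    calc (Nat.card B : ℝ) * U = ∑ χ ∈ Finset.univ.filter (· ∈ B), U := by
          rw [Finset.sum_const, nsmul_eq_mul, Nat.card_eq_fintype_card, Fintype.card_subtype]
      _ ≤ ∑ χ ∈ Finset.univ.filter (· ∈ B), diagSum hS b χ :=
          Finset.sum_le_sum fun χ hχ => hlow χ (Finset.mem_filter.1 hχ).2
      _ ≤ _ := sum_diagSum_le hS hM hind.1 _
      _ = _ := by push_cast; ring
  exact_mod_cast le_of_mul_le_mul_right h2 hU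

/-- A major subsection whose quotient block has cyclic defect group. -/
theorem card_le_of_cyclic_quot {G : Type u} [Group G] [Fintype G] {C : Subgroup G} [Fintype C]
    {Z : Subgroup C} [Z.Normal] [Fintype (C ⧸ Z)] {u : G} {k : ℕ} {B : Set (IrrCharacter G)}
    {b : Set (IrrCharacter C)} (hS : IsSection p k u C) (hM : IsPModular p M)
    (hind : IsInducedBlock M C b B) (hbd : blockDefect p b = blockDefect p B)
    (hZc : Z ≤ Subgroup.center C) (hZp : IsPGroup p Z) [M.IsPrime] [CharP (Block.ResF M) p]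
    (K : CycData p M (C ⧸ Z)) (hK : K.β.1 = quotBlock Z b) :
    Nat.card B ≤ Nat.card Z * p ^ K.b := by
  obtain ⟨N, w, c, hc, hvan, hsep, hcost⟩ := K.exists_cyclic_functionals
  rw [hK] at hvan hsep hcost
  set β := quotBlock Z b with hβ
  set T := Finset.univ.filter (· ∈ β) with hT
  set ψ : Fin N → C ⧸ Z → ℂ := fun r => ∑ φ ∈ T, (w r φ : ℂ) • (φ : C ⧸ Z → ℂ) with hψ
  set g : Fin N → C → ℂ := fun r => ∑ φ ∈ T, (w r φ : ℂ) •
    pRegularPart p ((Char.irrEquivQuotient Z φ : IrrCharacter C) : C → ℂ) with hg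
  have hgψ : ∀ r, g r = pRegularPart p (fun y : C => ψ r (y : C ⧸ Z)) := by
    intro r
    funext y
    simp only [hg, hψ, Finset.sum_apply, Pi.smul_apply, smul_eq_mul, pRegularPart, IsPRegular]
    by_cases h : p ∣ orderOf y <;> simp [h, Char.irrEquivQuotient_apply]
  have hψv : ∀ r q, p ∣ orderOf q → ψ r q = 0 := by
    intro r q hq
    simp only [hψ, Finset.sum_apply, Pi.smul_apply, smul_eq_mul]
    exact hvan r q hq
  have hψg : ∀ r, IsGeneralizedCharacter (C ⧸ Z) (ψ r) := by
    intro r
    refine CharInd.genChar_sum T fun φ _ => ?_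
    exact CharInd.genChar_zsmul (CharInd.genChar_irr φ.2) _
  have hψn : ∀ r, regSum p (ψ r) (ψ r) =
      (Nat.card (C ⧸ Z) : ℂ) * ((∑ φ ∈ T, (w r φ : ℝ) ^ 2 : ℝ) : ℂ) := by
    intro r
    have e : regSum p (ψ r) (ψ r) = ∑ q, ψ r q * conj (ψ r q) := by
      rw [regSum]
      refine Finset.sum_filter_of_ne fun q _ hne hq => hne ?_
      rw [hψv r q hq, zero_mul]
    rw [e, Char.sum_mul_conj_eq_card_mul_classInner]
    congr 1
    simp only [hψ, CharInd.classInner_sum_left, Char.classInner_smul_left,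
      CharInd.classInner_sum_right, Char.classInner_smul_right, map_intCast,
      Char.classInner_irrCharacter, mul_ite, mul_one, mul_zero, Finset.sum_ite_eq']
    push_cast
    refine Finset.sum_congr rfl fun φ hφ => ?_
    rw [if_pos hφ]
    ring
  have hC0 : (Nat.card C : ℂ) ≠ 0 := Nat.cast_ne_zero.2 Nat.card_pos.ne'
  have hZ0 : (Nat.card Z : ℂ) ≠ 0 := Nat.cast_ne_zero.2 Nat.card_pos.ne'
  have key := card_le_weight hS hM hind hbd g (fun r => Submodule.sum_mem _ fun φ hφ =>
      Submodule.smul_mem _ _ (Submodule.subset_span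
        ⟨(Char.irrEquivQuotient Z φ : IrrCharacter C), (Finset.mem_filter.1 hφ).2, rfl⟩))
    ((Nat.card Z : ℂ) / (Nat.card C : ℂ)) (div_ne_zero hZ0 hC0) c hc
    (fun r ξ _ => by
      obtain ⟨n, hn⟩ := exists_int_regSum_infl hZc hZp (hψg r) (hψv r) ξ
      exact ⟨n, by rw [hgψ, regSum_pRegularPart_right]; exact hn⟩)
    (fun f hf hf0 => by
      -- the coefficients of `f` on the quotient
      obtain ⟨a, ha⟩ : ∃ a : IrrCharacter (C ⧸ Z) → ℂ, f = pRegularPart p
          (fun y : C => ∑ φ ∈ T, a φ * (φ : C ⧸ Z → ℂ) (y : C ⧸ Z)) := by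
        refine Submodule.span_induction ?_ ?_ ?_ ?_ (span_le_infl hM hZc hZp hind.1 hf)
        · rintro _ ⟨φ₀, hφ₀, rfl⟩
          refine ⟨fun φ => if φ = φ₀ then 1 else 0, funext fun y => ?_⟩
          have hmem : φ₀ ∈ T := Finset.mem_filter.2 ⟨Finset.mem_univ _, hφ₀⟩
          simp [pRegularPart, Char.irrEquivQuotient_apply, hmem]
        · exact ⟨0, funext fun y => by simp [pRegularPart]⟩
        · rintro _ _ _ _ ⟨a, rfl⟩ ⟨a', rfl⟩
          refine ⟨a + a', funext fun y => ?_⟩
          simp only [Pi.add_apply, pRegularPart, add_mul, Finset.sum_add_distrib]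
          split_ifs <;> simp
        · rintro t _ _ ⟨a, rfl⟩
          refine ⟨t • a, funext fun y => ?_⟩
          simp only [Pi.smul_apply, smul_eq_mul, pRegularPart, mul_assoc, ← Finset.mul_sum]
          split_ifs <;> simp
      set F : C ⧸ Z → ℂ := fun q => ∑ φ ∈ T, a φ * (φ : C ⧸ Z → ℂ) q with hF
      have hFc : IsClassFunction (C ⧸ Z) F := fun q h => by
        simp only [hF, Char.irr_isClassFunction (Subtype.prop _) q h]
      set v : IrrCharacter (C ⧸ Z) → ℂ := fun φ =>
        classInner (pRegularPart p F) (φ : C ⧸ Z → ℂ) with hv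
      have hL : ∀ φ : IrrCharacter (C ⧸ Z),
          regSum p f ((Char.irrEquivQuotient Z φ : IrrCharacter C) : C → ℂ) =
            (Nat.card (C ⧸ Z) : ℂ) * v φ := by
        intro φ
        simp only [hv]
        rw [BrauerPairs.classInner_pRegularPart,
          mul_div_cancel₀ _ (Nat.cast_ne_zero.2 Nat.card_pos.ne'), ha, regSum_pRegularPart_left]
        exact regSum_comp_mk hZc hZp F (φ : C ⧸ Z → ℂ)
      have hβb : IsPBlock M β := isPBlock_quotBlock hM hZc hZp hind.1
      have hv0 : ∀ φ, φ ∉ β → v φ = 0 := by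
        intro φ hφ
        have e : regSum p F (φ : C ⧸ Z → ℂ) =
            ∑ φ' ∈ T, a φ' * regSum p (φ' : C ⧸ Z → ℂ) (φ : C ⧸ Z → ℂ) := by
          simp only [hF, regSum, Finset.sum_mul, Finset.mul_sum]
          rw [Finset.sum_comm]
          exact Finset.sum_congr rfl fun _ _ => Finset.sum_congr rfl fun _ _ => by ring
        simp only [hv]
        rw [BrauerPairs.classInner_pRegularPart, e, Finset.sum_eq_zero, zero_div]
        intro φ' hφ'
        rw [Brauer.regSum_eq_zero_of_integral hM β (blockCoeff_memLocalRing hβb)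
          (Finset.mem_filter.1 hφ').2 hφ, mul_zero]
      have hexp : ∀ q, pRegularPart p F q = ∑ φ ∈ T, v φ * (φ : C ⧸ Z → ℂ) q := by
        intro q
        conv_lhs => rw [Char.eq_sum_classInner_smul (BrauerPairs.pRegularPart_classFunction hFc)]
        rw [Finset.sum_apply, hT, Finset.sum_filter_of_ne]
        · rfl
        · intro φ _ hne
          by_contra h
          exact hne (by rw [hv0 φ h, zero_mul])
      refine (hsep (fun φ => regSum p f
        ((Char.irrEquivQuotient Z φ : IrrCharacter C) : C → ℂ)) ⟨fun φ => conj (v φ), ?_, ?_⟩).trans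
        (le_of_eq (Finset.sum_congr (Finset.filter_congr fun r _ => ?_) fun _ _ => rfl))
      · intro q hq
        have h1 : pRegularPart p F q⁻¹ = 0 := by
          simp [pRegularPart, IsPRegular, orderOf_inv, hq]
        rw [hexp] at h1
        have h2 := congrArg conj h1
        rw [map_sum, map_zero] at h2
        rw [← h2]
        refine Finset.sum_congr rfl fun φ _ => ?_
        rw [map_mul, Char.irr_inv φ.2, Complex.conj_conj]
      · simp only [hL]
        intro h0
        apply hf0
        have h1 : ∑ φ ∈ T, Complex.normSq (v φ) = 0 := by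
          rw [← Complex.ofReal_eq_zero, Complex.ofReal_sum]
          refine mul_left_cancel₀ (Nat.cast_ne_zero.2 (Nat.card_pos (α := C ⧸ Z)).ne') ?_
          rw [mul_zero, ← h0, Finset.mul_sum]
          exact Finset.sum_congr rfl fun φ _ => by rw [← Complex.mul_conj]; ring
        rw [Finset.sum_eq_zero_iff_of_nonneg fun φ _ => Complex.normSq_nonneg _] at h1
        have hF0 : ∀ q, pRegularPart p F q = 0 := fun q => by
          rw [hexp]
          exact Finset.sum_eq_zero fun φ hφ => by
            rw [Complex.normSq_eq_zero.1 (h1 φ hφ), zero_mul]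
        rw [ha]
        funext y
        by_cases hy : p ∣ orderOf y
        · simp [pRegularPart, IsPRegular, hy]
        · have h2 := hF0 (y : C ⧸ Z)
          simp only [pRegularPart, IsPRegular, not_dvd_orderOf_mk hy, not_false_eq_true,
            if_true] at h2
          simp only [pRegularPart, IsPRegular, hy, not_false_eq_true, if_true, Pi.zero_apply]
          exact h2
      · have e : regSum p f (g r) = ∑ φ ∈ T, (w r φ : ℂ) *
            regSum p f ((Char.irrEquivQuotient Z φ : IrrCharacter C) : C → ℂ) := by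
          simp only [hg, regSum_sum_right, regSum_smul_right, map_intCast,
            regSum_pRegularPart_right]
        rw [e])
  have hterm : ∀ r, Complex.normSq ((Nat.card Z : ℂ) / (Nat.card C : ℂ)) * (Nat.card C : ℝ) *
      (regSum p (g r) (g r)).re = (Nat.card Z : ℝ) * ∑ φ ∈ T, (w r φ : ℝ) ^ 2 := by
    intro r
    rw [hgψ, regSum_pRegularPart_left, regSum_pRegularPart_right, regSum_comp_mk hZc hZp, hψn,
      ← Complex.ofReal_natCast (Nat.card (C ⧸ Z)), ← Complex.ofReal_mul, Complex.ofReal_re,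
      map_div₀, Complex.normSq_natCast, Complex.normSq_natCast]
    have hcc : (Nat.card C : ℝ) = (Nat.card Z : ℝ) * (Nat.card (C ⧸ Z) : ℝ) := by
      rw [← Nat.cast_mul, ← Subgroup.index_eq_card, Subgroup.card_mul_index]
    have hne : (Nat.card (C ⧸ Z) : ℝ) ≠ 0 := Nat.cast_ne_zero.2 Nat.card_pos.ne'
    have hne' : (Nat.card Z : ℝ) ≠ 0 := Nat.cast_ne_zero.2 Nat.card_pos.ne'
    rw [hcc]
    field_simp
  have h2 : (Nat.card B : ℝ) ≤ ((Nat.card Z * p ^ K.b : ℕ) : ℝ) := by
    refine key.trans ?_
    rw [Finset.sum_congr rfl fun r _ => by rw [hterm r, mul_left_comm], ← Finset.mul_sum,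
      Nat.cast_mul]
    exact mul_le_mul_of_nonneg_left hcost (Nat.cast_nonneg _)
  exact_mod_cast h2

/-- The major subsection at an element of an abelian defect group, with the defect group of the
quotient block. -/
theorem exists_subsection {G : Type u} [Group G] [Fintype G] (hM : IsPModular p M)
    {B : Set (IrrCharacter G)} (hB : IsPBlock M B) {D : Subgroup G}
    (hD : IsDefectGroup p M B D) (hab : ∀ a ∈ D, ∀ b ∈ D, a * b = b * a) {u : G} (hu : u ∈ D) :
    ∃ (k : ℕ) (C : Subgroup G) (Z : Subgroup C) (b : Set (IrrCharacter C)),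
      Z.Normal ∧ Z ≤ Subgroup.center C ∧ IsPGroup p Z ∧ Nat.card Z = orderOf u ∧ D ≤ C ∧
        Z = (Subgroup.zpowers u).subgroupOf C ∧
        IsSection p k u C ∧ IsInducedBlock M C b B ∧ blockDefect p b = blockDefect p B ∧
        IsDefectGroup p M b (D.subgroupOf C) := by
  haveI : M.IsPrime := isPrime_of_isPModular hM
  haveI := Block.charP_resF (M := M) hM
  have hDp : IsPGroup p D := isDefectGroup_isPGroup hD
  obtain ⟨k, hk⟩ := (IsPGroup.iff_orderOf.1 hDp) ⟨u, hu⟩
  rw [Subgroup.orderOf_mk] at hk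
  have hzc : ∀ x ∈ D, x * u = u * x := fun x hx => hab x hx u hu
  set BB : BrauerPairs.Blk M G := ⟨B, hB⟩
  have hdef : BrauerPairs.IsDef (BrauerPairs.blockSysTop M) p BB D :=
    BrauerPairs.isDef_of_isDefectGroup hD
  obtain ⟨c, hm⟩ := BrauerPairs.exists_maxPair_of_isDef
    (ι := fun P => BrauerPairs.Blk M (Subgroup.centralizer (P : Set G)))
    (S := BrauerPairs.pairSys M G) hdef
  obtain ⟨f, hf, -⟩ := BrauerPairs.existsUnique_sle (S := BrauerPairs.pairSys M G)
    (b := (⟨D, c⟩ : BrauerPairs.PairIdx M G)) (Q := Subgroup.zpowers u) hDp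
    (Subgroup.zpowers_le.2 hu)
  obtain ⟨h1, h2⟩ := BlockHeight.isDefIn_conj (g := 1) hm hzc hf (u := u) (β := f)
    ⟨by ext x; simp, (BrauerPairs.cj_one _).symm⟩
  have hle : Subgroup.zpowers u ≤ Subgroup.centralizer (Subgroup.zpowers u : Set G) :=
    Subgroup.zpowers_le.2 (BlockHeight.mem_centralizer_zpowers.2 rfl)
  have hDC := BlockHeight.le_centralizer_zpowers (D := D) hzc
  have hD1 : D.map (MulAut.conj (1 : G)).toMonoidHom = D := by ext x; simp
  have hZcard : Nat.card ((Subgroup.zpowers u).subgroupOf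
      (Subgroup.centralizer (Subgroup.zpowers u : Set G))) = orderOf u := by
    rw [Nat.card_congr (Subgroup.subgroupOfEquivOfLe hle).toEquiv, Nat.card_zpowers]
  have hZc : (Subgroup.zpowers u).subgroupOf (Subgroup.centralizer (Subgroup.zpowers u : Set G)) ≤
      Subgroup.center (Subgroup.centralizer (Subgroup.zpowers u : Set G)) := fun a ha =>
    Subgroup.mem_center_iff.2 fun g => Subtype.ext
      (Subgroup.mem_centralizer_iff.1 g.2 a (Subgroup.mem_subgroupOf.1 ha)).symm
  refine ⟨k, Subgroup.centralizer (Subgroup.zpowers u : Set G),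
    (Subgroup.zpowers u).subgroupOf (Subgroup.centralizer (Subgroup.zpowers u : Set G)), f.1,
    ⟨fun n hn g => by rwa [Subgroup.mem_center_iff.1 (hZc hn) g, mul_inv_cancel_right]⟩, hZc,
    IsPGroup.of_card (n := k) (by rw [hZcard, hk]), hZcard, hDC, rfl,
    ⟨fun g => BlockHeight.mem_centralizer_zpowers, by rw [← hk, pow_orderOf_eq_one]⟩,
    (BlockCover.isInducedBlock_iff_pairOf h2.1 f BB).2 h2,
    BlockHeight.blockDefect_eq_of_isDefIn hM hm (g := 1) h1, ?_⟩
  rw [hD1] at h1
  exact (BrauerPairs.isDefectGroup_subgroupOf_iff f).2 (by rwa [inf_of_le_left hDC])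

/-- The defect group of the quotient block. -/
theorem isDefectGroup_quot {C : Type u} [Group C] [Fintype C] (hM : IsPModular p M)
    {Z : Subgroup C} [Z.Normal] (hZc : Z ≤ Subgroup.center C) (hZp : IsPGroup p Z)
    {b : Set (IrrCharacter C)} (hb : IsPBlock M b) {P : Subgroup C}
    (hP : IsDefectGroup p M b P) :
    IsDefectGroup p M (quotBlock Z b) (P.map (QuotientGroup.mk' Z)) := by
  haveI : M.IsPrime := isPrime_of_isPModular hM
  haveI := Fintype.ofFinite (C ⧸ Z)
  obtain ⟨Bbar, hBbar, hsub, hdef⟩ := BlockCover.exists_block_map_defectGroup Z hM hZp hb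
  obtain ⟨φ, hφ⟩ := pBlock_nonempty hBbar
  have hmem : φ ∈ quotBlock Z b := hsub φ hφ _ (funext fun g => by
    simp [Char.irrEquivQuotient_apply])
  have heq : Bbar = quotBlock Z b :=
    pBlock_eq_of_mem hBbar (isPBlock_quotBlock hM hZc hZp hb) hφ hmem
  rw [← heq]
  exact (hdef _).2 ⟨P, hP, rfl⟩

/-- A defect group generated by two commuting elements. -/
theorem card_le_of_two_gen {G : Type u} [Group G] [Fintype G] (hM : IsPModular p M)
    {B : Set (IrrCharacter G)} (hB : IsPBlock M B) {x y : G}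
    (hxy : x * y = y * x) (hD : IsDefectGroup p M B (Subgroup.closure {x, y})) :
    Nat.card B ≤ Nat.card (Subgroup.closure ({x, y} : Set G)) := by
  haveI : M.IsPrime := isPrime_of_isPModular hM
  haveI := Block.charP_resF (M := M) hM
  set D := Subgroup.closure ({x, y} : Set G) with hDdef
  have hcomm : ∀ a ∈ D, ∀ b ∈ D, a * b = b * a := by
    have hle : D ≤ Subgroup.centralizer (D : Set G) := by
      rw [hDdef, Subgroup.centralizer_closure, Subgroup.closure_le]
      rintro a ha
      rw [SetLike.mem_coe, Subgroup.mem_centralizer_iff]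
      rintro b hb
      rcases ha with rfl | rfl <;> rcases hb with rfl | rfl <;> first | rfl | exact hxy | exact hxy.symm
    exact fun a ha b hb => Subgroup.mem_centralizer_iff.1 (hle hb) a ha
  obtain ⟨k, C, Z, b, hZn, hZc, hZp, hZcard, hDC, hZeq, hS, hind, hbd, hbD⟩ :=
    exists_subsection hM hB hD hcomm (Subgroup.subset_closure (Set.mem_insert x {y}))
  haveI := hZn
  haveI := Fintype.ofFinite C
  haveI := Fintype.ofFinite (C ⧸ Z)
  have hβ : IsPBlock M (quotBlock Z b) := isPBlock_quotBlock hM hZc hZp hind.1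
  have hQ := isDefectGroup_quot hM hZc hZp hind.1 hbD
  have hyC : y ∈ C := hDC (Subgroup.subset_closure (Set.mem_insert_of_mem _ rfl))
  have hxC : x ∈ C := hDC (Subgroup.subset_closure (Set.mem_insert x {y}))
  set ybar : C ⧸ Z := ((⟨y, hyC⟩ : C) : C ⧸ Z) with hybar
  have hgen : (D.subgroupOf C).map (QuotientGroup.mk' Z) = Subgroup.zpowers ybar := by
    refine le_antisymm ?_ (Subgroup.zpowers_le.2 ⟨⟨y, hyC⟩, Subgroup.mem_subgroupOf.2
      (Subgroup.subset_closure (Set.mem_insert_of_mem _ rfl)), rfl⟩)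
    rw [Subgroup.map_le_iff_le_comap]
    have hxZ : (⟨x, hxC⟩ : C) ∈ Z := by
      rw [hZeq, Subgroup.mem_subgroupOf]
      exact Subgroup.mem_zpowers x
    have h1 : D ≤ ((Subgroup.zpowers ybar).comap (QuotientGroup.mk' Z)).map C.subtype := by
      rw [hDdef, Subgroup.closure_le]
      rintro a (rfl | rfl)
      · refine ⟨⟨a, hxC⟩, ?_, rfl⟩
        show ((⟨a, hxC⟩ : C) : C ⧸ Z) ∈ Subgroup.zpowers ybar
        rw [(QuotientGroup.eq_one_iff _).2 hxZ]
        exact one_mem _
      · exact ⟨⟨a, hyC⟩, Subgroup.mem_zpowers _, rfl⟩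
    intro a ha
    obtain ⟨a', ha', he⟩ := h1 (Subgroup.mem_subgroupOf.1 ha)
    rwa [Subtype.ext he] at ha'
  rw [hgen] at hQ
  have hcardD : Nat.card D = p ^ blockDefect p B := Block.card_isDefectGroup hM hB hD
  obtain ⟨n, hn⟩ := (isDefectGroup_isPGroup hQ).exists_card_eq
  have hdq := blockDefect_quotBlock hM hZc hZp hind.1
  have hn' : blockDefect p (quotBlock Z b) = n :=
    (Nat.pow_right_injective hp.out.two_le
      (hn.symm.trans (Block.card_isDefectGroup hM hβ hQ))).symm
  rcases Nat.eq_zero_or_pos n with h0 | h0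
  · have hl := blockRank_le_card_quotBlock hM hZc hZp hind.1
    have h := S4494.result p M hM (quotBlock Z b) hβ
    rw [hn', h0] at h
    simp only [mul_zero, pow_zero] at h
    rw [hcardD]
    exact BlkChar.RankTwo.card_le_pow_defect hS hM hind hbd (by omega)
  · obtain ⟨e, he⟩ := BrauerPairs.exists_maxPair_of_isDef
      (ι := fun P => BrauerPairs.Blk M (Subgroup.centralizer (P : Set (C ⧸ Z))))
      (S := BrauerPairs.pairSys M (C ⧸ Z))
      (BrauerPairs.isDef_of_isDefectGroup (B := (⟨_, hβ⟩ : BrauerPairs.Blk M (C ⧸ Z))) hQ)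
    have hord : orderOf ybar = p ^ n := by rw [← Nat.card_zpowers]; exact hn
    have hle := card_le_of_cyclic_quot hS hM hind hbd hZc hZp
      ({ β := ⟨_, hβ⟩, x := ybar, b := n, c := e, isPModular := hM,
         isMax := (BrauerPairs.isMaximalBrauerPair_iff _ ⟨_, e⟩).2 he,
         hord := hord, hb := h0.ne' } : CycData p M (C ⧸ Z)) rfl
    refine hle.trans (le_of_eq ?_)
    rw [hcardD, ← hbd, ← hdq, hn', pow_add]
    congr 1
    obtain ⟨m, hm⟩ := hZp.exists_card_eq
    rw [hm, Nat.Prime.factorization_pow hp.out, Finsupp.single_eq_same]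

/-- A defect group generated by three commuting elements. -/
theorem card_pow_three_le {G : Type u} [Group G] [Fintype G] (hM : IsPModular p M)
    {B : Set (IrrCharacter G)} (hB : IsPBlock M B) {D : Subgroup G} (hD : IsDefectGroup p M B D)
    (hab : ∀ a ∈ D, ∀ b ∈ D, a * b = b * a) {x y z : G}
    (hgen : D = Subgroup.closure {x, y, z}) (hmax : Nat.card D ≤ orderOf x ^ 3) :
    Nat.card B ^ 3 ≤ Nat.card D ^ 5 := by
  haveI : M.IsPrime := isPrime_of_isPModular hM
  haveI := Block.charP_resF (M := M) hM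
  have hxD : x ∈ D := hgen ▸ Subgroup.subset_closure (Set.mem_insert x _)
  have hyD : y ∈ D := hgen ▸ Subgroup.subset_closure (by simp)
  have hzD : z ∈ D := hgen ▸ Subgroup.subset_closure (by simp)
  obtain ⟨k, C, Z, b, hZn, hZc, hZp, hZcard, hDC, hZeq, hS, hind, hbd, hbD⟩ :=
    exists_subsection hM hB hD hab hxD
  haveI := hZn
  haveI := Fintype.ofFinite C
  haveI := Fintype.ofFinite (C ⧸ Z)
  have hβ : IsPBlock M (quotBlock Z b) := isPBlock_quotBlock hM hZc hZp hind.1
  have hQ := isDefectGroup_quot hM hZc hZp hind.1 hbD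
  set yb : C ⧸ Z := ((⟨y, hDC hyD⟩ : C) : C ⧸ Z)
  set zb : C ⧸ Z := ((⟨z, hDC hzD⟩ : C) : C ⧸ Z)
  have hgenq : (D.subgroupOf C).map (QuotientGroup.mk' Z) = Subgroup.closure {yb, zb} := by
    refine le_antisymm ?_ ?_
    · rw [Subgroup.map_le_iff_le_comap]
      have hxZ : (⟨x, hDC hxD⟩ : C) ∈ Z := by
        rw [hZeq, Subgroup.mem_subgroupOf]
        exact Subgroup.mem_zpowers x
      have h1 : D ≤ ((Subgroup.closure {yb, zb}).comap (QuotientGroup.mk' Z)).map C.subtype := by
        refine hgen.le.trans ?_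
        rw [Subgroup.closure_le]
        rintro a (rfl | rfl | rfl)
        · refine ⟨⟨a, hDC hxD⟩, ?_, rfl⟩
          show ((⟨a, hDC hxD⟩ : C) : C ⧸ Z) ∈ Subgroup.closure {yb, zb}
          rw [(QuotientGroup.eq_one_iff _).2 hxZ]
          exact one_mem _
        · exact ⟨⟨a, hDC hyD⟩, Subgroup.subset_closure (Set.mem_insert _ _), rfl⟩
        · exact ⟨⟨a, hDC hzD⟩, Subgroup.subset_closure (Set.mem_insert_of_mem _ rfl), rfl⟩
      intro a ha
      obtain ⟨a', ha', he⟩ := h1 (Subgroup.mem_subgroupOf.1 ha)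
      rwa [Subtype.ext he] at ha'
    · rw [Subgroup.closure_le]
      rintro a (rfl | rfl)
      · exact ⟨⟨y, hDC hyD⟩, Subgroup.mem_subgroupOf.2 hyD, rfl⟩
      · exact ⟨⟨z, hDC hzD⟩, Subgroup.mem_subgroupOf.2 hzD, rfl⟩
  rw [hgenq] at hQ
  have hyz : yb * zb = zb * yb :=
    (congrArg (QuotientGroup.mk (s := Z)) (Subtype.ext (hab y hyD z hzD) :
      (⟨y, hDC hyD⟩ : C) * ⟨z, hDC hzD⟩ = ⟨z, hDC hzD⟩ * ⟨y, hDC hyD⟩) : _)
  have hk2 := card_le_of_two_gen hM hβ hyz hQ
  have hcardD : Nat.card D = p ^ blockDefect p B := Block.card_isDefectGroup hM hB hD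
  rw [Block.card_isDefectGroup hM hβ hQ] at hk2
  have hl : blockRank p b ≤ p ^ blockDefect p (quotBlock Z b) :=
    (blockRank_le_card_quotBlock hM hZc hZp hind.1).trans hk2
  have hk := (card_le_pow_mul_blockRank hS hM hind hbd).trans (Nat.mul_le_mul_left _ hl)
  obtain ⟨m, hm⟩ := hZp.exists_card_eq
  have hdq := blockDefect_quotBlock hM hZc hZp hind.1
  rw [hm, Nat.Prime.factorization_pow hp.out, Finsupp.single_eq_same] at hdq
  rw [hm] at hZcard
  rw [← hZcard, hcardD, ← pow_mul] at hmax
  have hdm := (Nat.pow_le_pow_iff_right hp.out.one_lt).1 hmax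
  refine (Nat.pow_le_pow_left hk 3).trans ?_
  rw [hcardD, ← pow_add, ← pow_mul, ← pow_mul]
  exact Nat.pow_le_pow_right hp.out.pos (by omega)

/-- The bounds for rank two and three. -/
theorem card_le_of_rank {G : Type u} [Group G] [Fintype G] (hM : IsPModular p M)
    {B : Set (IrrCharacter G)} (hB : IsPBlock M B) {D : Subgroup G} (hD : IsDefectGroup p M B D)
    (hab : ∀ a ∈ D, ∀ b ∈ D, a * b = b * a) {d : ℕ} (hDd : Nat.card D = p ^ d) :
    (Group.rank D = 2 → Nat.card B ≤ p ^ d) ∧
      (Group.rank D = 3 → Nat.card B ^ 3 ≤ p ^ (5 * d)) := by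
  obtain ⟨S, hScard, hSgen⟩ := Group.rank_spec D
  have hgen : D = Subgroup.closure ((Subtype.val : D → G) '' (S : Set D)) := by
    have h := congrArg (Subgroup.map D.subtype) hSgen
    rw [MonoidHom.map_closure, ← MonoidHom.range_eq_map, Subgroup.range_subtype] at h
    exact h.symm
  refine ⟨fun h2 => ?_, fun h3 => ?_⟩
  · rw [h2] at hScard
    obtain ⟨a, b, -, rfl⟩ := Finset.card_eq_two.1 hScard
    rw [Finset.coe_pair, Set.image_pair] at hgen
    rw [← hDd]
    have hcl : IsDefectGroup p M B (Subgroup.closure {(a : G), (b : G)}) := hgen ▸ hD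
    exact (card_le_of_two_gen hM hB (hab _ a.2 _ b.2) hcl).trans
      (le_of_eq (congrArg (fun K : Subgroup G => Nat.card K) hgen.symm))
  · rw [h3] at hScard
    obtain ⟨a, b, c, -, -, -, rfl⟩ := Finset.card_eq_three.1 hScard
    have hset : (Subtype.val : D → G) '' (({a, b, c} : Finset D) : Set D) =
        {(a : G), (b : G), (c : G)} := by
      simp [Set.image_insert_eq]
    rw [hset] at hgen
    rw [pow_mul', ← hDd]
    -- the order is at most the product of the orders of the generators
    have hle : Nat.card D ≤ orderOf (a : G) * orderOf (b : G) * orderOf (c : G) := by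
      have hsurj : Function.Surjective
          (fun t : Subgroup.zpowers a × Subgroup.zpowers b × Subgroup.zpowers c =>
            (t.1 : D) * (t.2.1 : D) * (t.2.2 : D)) := by
        letI : CommGroup D :=
          { (inferInstance : Group D) with
            mul_comm := fun x y => Subtype.ext (hab x x.2 y y.2) }
        intro w
        have hw : w ∈ Subgroup.zpowers a ⊔ Subgroup.zpowers b ⊔ Subgroup.zpowers c := by
          have : (⊤ : Subgroup D) ≤ Subgroup.zpowers a ⊔ Subgroup.zpowers b ⊔ Subgroup.zpowers c := by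
            rw [← hSgen, Subgroup.closure_le]
            intro v hv
            simp only [Finset.coe_insert, Finset.coe_singleton, Set.mem_insert_iff,
              Set.mem_singleton_iff] at hv
            rcases hv with rfl | rfl | rfl
            · exact Subgroup.mem_sup_left (Subgroup.mem_sup_left (Subgroup.mem_zpowers _))
            · exact Subgroup.mem_sup_left (Subgroup.mem_sup_right (Subgroup.mem_zpowers _))
            · exact Subgroup.mem_sup_right (Subgroup.mem_zpowers _)
          exact this trivial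
        obtain ⟨s, hs, t, ht, rfl⟩ := Subgroup.mem_sup.1 hw
        obtain ⟨r, hr, q, hq, rfl⟩ := Subgroup.mem_sup.1 hs
        exact ⟨(⟨r, hr⟩, ⟨q, hq⟩, ⟨t, ht⟩), rfl⟩
      refine (Nat.card_le_card_of_surjective _ hsurj).trans (le_of_eq ?_)
      rw [Nat.card_prod, Nat.card_prod, Nat.card_zpowers, Nat.card_zpowers, Nat.card_zpowers,
        Subgroup.orderOf_coe, Subgroup.orderOf_coe, Subgroup.orderOf_coe, mul_assoc]
    have hpow : ∀ {u v w : ℕ}, v ≤ u → w ≤ u → u * v * w ≤ u ^ 3 := fun {u v w} h1 h2 => by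
      rw [pow_succ, pow_two]
      exact Nat.mul_le_mul (Nat.mul_le_mul_left u h1) h2
    rcases le_total (orderOf (b : G)) (orderOf (a : G)) with hba | hab' <;>
      rcases le_total (orderOf (c : G)) (max (orderOf (a : G)) (orderOf (b : G))) with hc | hc
    · rw [max_eq_left hba] at hc
      exact card_pow_three_le hM hB hD hab hgen (hle.trans (hpow hba hc))
    · rw [max_eq_left hba] at hc
      refine card_pow_three_le hM hB hD hab (x := (c : G)) (y := (a : G)) (z := (b : G))
        (hgen.trans (congrArg Subgroup.closure (by ext; simp; tauto))) (hle.trans ?_)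
      rw [mul_comm, ← mul_assoc]
      exact hpow hc (hba.trans hc)
    · rw [max_eq_right hab'] at hc
      refine card_pow_three_le hM hB hD hab (x := (b : G)) (y := (a : G)) (z := (c : G))
        (hgen.trans (congrArg Subgroup.closure (by ext; simp; tauto))) (hle.trans ?_)
      rw [mul_comm (orderOf (a : G))]
      exact hpow hab' hc
    · rw [max_eq_right hab'] at hc
      refine card_pow_three_le hM hB hD hab (x := (c : G)) (y := (a : G)) (z := (b : G))
        (hgen.trans (congrArg Subgroup.closure (by ext; simp; tauto))) (hle.trans ?_)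
      rw [mul_comm, ← mul_assoc]
      exact hpow (hab'.trans hc) hc

end Cfsg.Agent.BlockCount
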