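import Cfsg.Agent.Block.Degrees
import Cfsg.Agent.Block.Vanishing
import Cfsg.Agent.CharInd.Clifford
import Cfsg.Agent.S0925

/-!
# Counting characters of `p'`-degree in a block over a normal subgroup
-/

set_option autoImplicit false
set_option linter.style.haveILetI false

open Cfsg Cfsg.Agent.Char Cfsg.Agent.Block
open scoped ComplexConjugate

namespace Cfsg.Agent.BlockCount

universe u

variable {G : Type u} [Group G] [Fintype G] {p : ℕ} [hp : Fact p.Prime]

theorem count_over (P : Sylow p G) {M : Ideal AlgInt} (hM : IsPModular p M)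
    (B : Set (IrrCharacter G)) (hB : IsPBlock M B) (N : Subgroup G) [N.Normal] [Fintype N]
    (hPN : ¬ (P : Subgroup G) ≤ N) (θ : IrrCharacter N) :
    (Nat.card {χ : IrrCharacter G // χ ∈ B ∧ ¬ p ∣ charDegree (χ : G → ℂ) ∧
        classInner (fun n : N => (χ : G → ℂ) n) (θ : N → ℂ) ≠ 0} = 0 ∨
      2 ≤ Nat.card {χ : IrrCharacter G // χ ∈ B ∧ ¬ p ∣ charDegree (χ : G → ℂ) ∧
        classInner (fun n : N => (χ : G → ℂ) n) (θ : N → ℂ) ≠ 0}) ∧
    (p ≤ 3 → p ∣ Nat.card {χ : IrrCharacter G // χ ∈ B ∧ ¬ p ∣ charDegree (χ : G → ℂ) ∧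
        classInner (fun n : N => (χ : G → ℂ) n) (θ : N → ℂ) ≠ 0}) := by
  classical
  haveI : M.IsPrime := hM.2.1.isPrime
  haveI := charP_resF (M := M) hM
  obtain ⟨x, hxP, hxN⟩ := SetLike.not_le_iff_exists.mp hPN
  obtain ⟨k, hk⟩ := IsPGroup.iff_orderOf.mp P.isPGroup' ⟨x, hxP⟩
  rw [Subgroup.orderOf_mk] at hk
  have hxpart : IsPPart p x x := ⟨1, mul_one x, Commute.one_right x, ⟨k, hk⟩, by
    rw [orderOf_one]; exact hp.out.not_dvd_one⟩
  choose e he using fun χ : IrrCharacter G =>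
    isCharacter_classInner_nat (CharInd.isCharacter_res N (isCharacter_of_irr χ.2)) θ
  obtain ⟨d, -, hd, -⟩ := irr_degree_dvd_card θ.2
  set BF := Finset.univ.filter (fun χ : IrrCharacter G => χ ∈ B) with hBF
  -- the sum vanishes at `x`
  have hzero : ∑ χ ∈ BF, (e χ : ℂ) * (χ : G → ℂ) x = 0 := by
    have horth : ∀ n : N, ∑ χ ∈ BF, (χ : G → ℂ) x * (χ : G → ℂ) n = 0 := by
      intro n
      have h := (Cfsg.Agent.S0925.result p M hM).2 x ((n : G)⁻¹) x
        (Element.pPart p ((n : G)⁻¹)) hxpart (isPPart_pPart hM.1 _) (fun hc => hxN (by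
          obtain ⟨c, hc⟩ := isConj_iff.mp hc.symm
          rw [← hc]
          refine (inferInstance : N.Normal).conj_mem _ ?_ c
          exact Subgroup.zpowers_le.mpr (N.inv_mem n.2) (Element.pPart_mem_zpowers p _))) B hB
      rw [finsum_mem_eq_toFinset_sum] at h
      refine Eq.trans ?_ h
      exact Finset.sum_congr (by ext; simp [hBF]) fun χ _ => by rw [inv_inv]
    have h1 : ∀ χ : IrrCharacter G, (e χ : ℂ) * (χ : G → ℂ) x =
        (Nat.card N : ℂ)⁻¹ * ∑ n : N, conj ((θ : N → ℂ) n) * ((χ : G → ℂ) x * (χ : G → ℂ) n) := by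
      intro χ
      rw [← he χ, classInner, mul_assoc, Finset.sum_mul]
      exact congrArg _ (Finset.sum_congr rfl fun n _ => by ring)
    rw [Finset.sum_congr rfl fun χ _ => h1 χ, ← Finset.mul_sum, Finset.sum_comm,
      Finset.sum_eq_zero (fun n _ => by rw [← Finset.mul_sum, horth n, mul_zero]), mul_zero]
  have hmem : ∀ (χ : IrrCharacter G) (g : G), MemLocalRing M ((χ : G → ℂ) g) := fun χ g =>
    char_memLocalRing χ.2 g
  have hres : ∑ χ ∈ BF, (e χ : ResF M) * (charDegree (χ : G → ℂ) : ResF M) = 0 := by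
    have h := congrArg (redC M) hzero
    rw [redC_zero, redC_sum _ _ (fun χ _ => (localRing M).mul_mem (memLocalRing_natCast _)
      (hmem χ x))] at h
    refine Eq.trans (Finset.sum_congr rfl fun χ _ => ?_) h
    rw [redC_mul (memLocalRing_natCast _) (hmem χ x), redC_natCast, ← redC_natCast (charDegree _)]
    congr 1
    have h1 := redC_char_mul_eq hM (isCharacter_of_irr χ.2) (Commute.one_right x) hk
      (by rw [orderOf_one]; exact hp.out.not_dvd_one)
    rw [mul_one] at h1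
    rw [h1, (irr_one_eq_charDegree χ.2).1]
  set S := BF.filter (fun χ : IrrCharacter G => ¬ p ∣ charDegree (χ : G → ℂ) ∧
    classInner (fun n : N => (χ : G → ℂ) n) (θ : N → ℂ) ≠ 0) with hS
  have hcard : Nat.card {χ : IrrCharacter G // χ ∈ B ∧ ¬ p ∣ charDegree (χ : G → ℂ) ∧
      classInner (fun n : N => (χ : G → ℂ) n) (θ : N → ℂ) ≠ 0} = S.card := by
    rw [Nat.card_eq_fintype_card, Fintype.card_subtype]
    congr 1
    ext χ
    simp [hS, hBF]
  rw [hcard]
  set t := (CharInd.conjClass N (θ : N → ℂ)).card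
  have hdeg : ∀ χ ∈ S, charDegree (χ : G → ℂ) = e χ * (t * d) := by
    intro χ hχ
    have h0 := (Finset.mem_filter.mp hχ).2.2
    have hcl := congrFun (CharInd.clifford N χ.2 θ.2 h0) 1
    rw [Pi.smul_apply, Finset.sum_apply, he χ, OneMemClass.coe_one, (irr_one_eq_charDegree χ.2).1,
      Finset.sum_congr rfl fun ψ hψ => (show ψ 1 = (d : ℂ) by
        obtain ⟨y, rfl⟩ := (CharInd.mem_conjClass N).mp hψ
        rw [CharInd.conjChar_apply, ← hd]
        exact congrArg _ (Subtype.ext (by simp))), Finset.sum_const, nsmul_eq_mul,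
      smul_eq_mul] at hcl
    exact_mod_cast hcl
  set c : ResF M := ((t * d : ℕ) : ResF M) with hc
  have hSsum : ∑ χ ∈ S, (e χ : ResF M) ^ 2 * c = 0 := by
    refine Eq.trans ?_ hres
    refine (Finset.sum_congr rfl fun χ hχ => ?_).trans
      (Finset.sum_subset (Finset.filter_subset _ _) (fun χ hχ hχS => ?_))
    · rw [hdeg χ hχ, hc]; push_cast; ring
    · rw [hS, Finset.mem_filter, not_and, not_and_or, not_not, not_not] at hχS
      rcases hχS hχ with h | h
      · rw [(CharP.cast_eq_zero_iff (ResF M) p _).mpr h, mul_zero]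
      · rw [he χ, Nat.cast_eq_zero] at h
        rw [h, Nat.cast_zero, zero_mul]
  have hne : ∀ χ ∈ S, (e χ : ResF M) ≠ 0 ∧ c ≠ 0 := by
    intro χ hχ
    have h1 : ((e χ * (t * d) : ℕ) : ResF M) ≠ 0 := fun h => (Finset.mem_filter.mp hχ).2.1
      (hdeg χ hχ ▸ (CharP.cast_eq_zero_iff (ResF M) p _).mp h)
    rw [Nat.cast_mul] at h1
    exact mul_ne_zero_iff.mp h1
  refine ⟨?_, fun h3 => ?_⟩
  · rcases Nat.lt_or_ge S.card 2 with h | h
    · left
      by_contra h0
      obtain ⟨χ, hχ⟩ := Finset.card_eq_one.mp (by omega : S.card = 1)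
      rw [hχ, Finset.sum_singleton] at hSsum
      obtain ⟨ha, hb⟩ := hne χ (by rw [hχ]; exact Finset.mem_singleton_self χ)
      exact mul_ne_zero (pow_ne_zero 2 ha) hb hSsum
    · exact Or.inr h
  · rcases S.eq_empty_or_nonempty with h | ⟨χ₀, hχ₀⟩
    · simp [h]
    have hone : ∀ χ ∈ S, (e χ : ResF M) ^ 2 = 1 := by
      intro χ hχ
      have h1 := (hne χ hχ).1
      rw [Ne, CharP.cast_eq_zero_iff (ResF M) p] at h1
      have h2 : e χ ^ 2 % p = 1 := by
        have := hp.out.two_le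
        rw [Nat.pow_mod]
        rcases (show p = 2 ∨ p = 3 by omega) with rfl | rfl
        · rw [show e χ % 2 = 1 by omega]
        · rcases (show e χ % 3 = 1 ∨ e χ % 3 = 2 by omega) with h | h <;> rw [h]
      rw [← Nat.cast_pow, ← Nat.cast_one, CharP.natCast_eq_natCast (ResF M) p, Nat.ModEq, h2,
        Nat.one_mod_eq_one.mpr hp.out.ne_one]
    rw [Finset.sum_congr rfl fun χ hχ => by rw [hone χ hχ, one_mul], Finset.sum_const,
      nsmul_eq_mul] at hSsum
    exact (CharP.cast_eq_zero_iff (ResF M) p _).mp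
      ((mul_eq_zero.mp hSsum).resolve_right (hne χ₀ hχ₀).2)

end Cfsg.Agent.BlockCount
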